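/-
Arithmetic for elements of order `q ^ m + 1`.
-/
import Mathlib

set_option autoImplicit false

namespace CfsgLib.SingerBound

theorem gcd_dvd_iff {m a : ℕ} (hm : 0 < m) (ha : a ≠ 0) :
    Nat.gcd (2 * m) a ∣ m ↔ padicValNat 2 a < padicValNat 2 (2 * m) := by
  haveI : Fact (Nat.Prime 2) := ⟨Nat.prime_two⟩
  set v := padicValNat 2 m with hv
  have h2m : padicValNat 2 (2 * m) = v + 1 := by
    rw [padicValNat.mul two_ne_zero hm.ne', padicValNat.self (by norm_num), hv, add_comm]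
  constructor
  · intro h
    by_contra hle
    push Not at hle
    rw [h2m] at hle
    have h1 : 2 ^ (v + 1) ∣ Nat.gcd (2 * m) a :=
      Nat.dvd_gcd (by rw [pow_succ']; exact Nat.mul_dvd_mul_left 2 pow_padicValNat_dvd)
        ((pow_dvd_pow 2 hle).trans pow_padicValNat_dvd)
    have := (padicValNat_dvd_iff_le hm.ne').1 (h1.trans h)
    omega
  · intro h
    set d := Nat.gcd (2 * m) a with hd
    have hd0 : d ≠ 0 := Nat.gcd_ne_zero_right ha
    obtain ⟨j, o, ho, hdo⟩ := Nat.exists_eq_pow_mul_and_not_dvd hd0 2 (by norm_num)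
    have hco : Nat.Coprime o 2 := ((Nat.prime_two.coprime_iff_not_dvd).2 ho).symm
    have hdl : 2 ^ j * o ∣ 2 * m := hdo ▸ (hd ▸ Nat.gcd_dvd_left (2 * m) a : d ∣ 2 * m)
    have hdr : 2 ^ j * o ∣ a := hdo ▸ (hd ▸ Nat.gcd_dvd_right (2 * m) a : d ∣ a)
    have hom : o ∣ m := hco.dvd_of_dvd_mul_left ((dvd_mul_left o _).trans hdl)
    have hja : 2 ^ j ∣ a := (dvd_mul_right _ o).trans hdr
    have hj := (padicValNat_dvd_iff_le ha).1 hja
    rw [h2m] at h
    have hjm : 2 ^ j ∣ m := (pow_dvd_pow 2 (show j ≤ v by omega)).trans pow_padicValNat_dvd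
    rw [hdo]
    exact (hco.symm.pow_left j).mul_dvd_of_dvd_of_dvd hjm hom

theorem gcd_dvd_iff_of_gcd_eq {m a M : ℕ} (hm : 0 < m) (ha : a ≠ 0)
    (hM : Nat.gcd M a = Nat.gcd m a) :
    Nat.gcd (2 * m) a ∣ M ↔ padicValNat 2 a < padicValNat 2 (2 * m) := by
  rw [← gcd_dvd_iff hm ha]
  have hda := Nat.gcd_dvd_right (2 * m) a
  exact ⟨fun h => (hM ▸ Nat.dvd_gcd h hda : Nat.gcd (2 * m) a ∣ Nat.gcd m a).trans
      (Nat.gcd_dvd_left m a),
    fun h => (hM.symm ▸ Nat.dvd_gcd h hda : Nat.gcd (2 * m) a ∣ Nat.gcd M a).trans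
      (Nat.gcd_dvd_left M a)⟩

end CfsgLib.SingerBound
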