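/-
Orders of matrices with an eigenvalue of primitive prime order.
-/
import Mathlib
import Cfsg.Agent.Lib.CharDegrees.PSLOrders

set_option autoImplicit false

open Polynomial Matrix

namespace CfsgLib.SingerBound

variable {F : Type*} [Field F] [Fintype F] {n : ℕ}

/-- If the eigenvalues of `M` are closed under `γ ↦ γ ^ Q` and one of them has order divisible by a
prime `r` for which `Q` has order at least `n`, then a power of `M` with small exponent is scalar. -/
theorem scalar_or_prime_free (p : ℕ) [Fact p.Prime] [CharP F p]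
    (M : Matrix (Fin n) (Fin n) F) (hdet : M.det = 1) (Q : ℤ) {r : ℕ} (hr : r.Prime) (hrp : r ≠ p)
    (hrQ : ¬ (r : ℤ) ∣ Q) (hordQ : ∀ i : ℕ, 0 < i → i < n → ¬ (r : ℤ) ∣ Q ^ i - 1)
    {d k : ℕ} (hd : (d : ℤ) ∣ Q - 1) (hdF : d ∣ Fintype.card F - 1)
    (hk : k * d = (∑ i ∈ Finset.range n, Q ^ i).natAbs) (hk0 : 0 < k)
    (hclosed : ∀ (γ : M.charpoly.SplittingField),
      (M.map (algebraMap F M.charpoly.SplittingField)).charpoly.IsRoot γ →
        (M.map (algebraMap F M.charpoly.SplittingField)).charpoly.IsRoot (γ ^ Q)) :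
    (∃ c : F, M ^ k = Matrix.scalar (Fin n) c) ∨ ∃ N : ℕ, ¬ r ∣ N ∧ M ^ N = 1 := by
  classical
  set K := M.charpoly.SplittingField
  haveI : Module.Finite F K :=
    Polynomial.IsSplittingField.finiteDimensional K M.charpoly
  haveI : Finite K := Module.finite_of_finite F
  haveI : CharP K p := charP_of_injective_algebraMap (algebraMap F K).injective p
  set B := M.map (algebraMap F K) with hB
  have hBχ : B.charpoly = M.charpoly.map (algebraMap F K) := Matrix.charpoly_map _ _
  have hsplit : B.charpoly.Splits := by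
    rw [hBχ]; exact Polynomial.SplittingField.splits M.charpoly
  have hcard : Multiset.card B.charpoly.roots = n := by
    rw [← hsplit.natDegree_eq_card_roots, Matrix.charpoly_natDegree_eq_dim, Fintype.card_fin]
  have hprod : B.charpoly = (B.charpoly.roots.map fun a => X - C a).prod :=
    hsplit.eq_prod_roots_of_monic B.charpoly_monic
  have hBdet : B.det = 1 := by
    rw [hB, show M.map (algebraMap F K) = (algebraMap F K).mapMatrix M from rfl,
      ← RingHom.map_det, hdet, map_one]
  have hne : ∀ γ ∈ B.charpoly.roots, γ ≠ 0 := by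
    intro γ hγ h0
    have h := det_eq_prod_roots_charpoly_of_splits hsplit
    rw [hBdet, Multiset.prod_eq_zero (h0 ▸ hγ)] at h
    exact one_ne_zero h
  have descend : ∀ (P : F[X]), B.charpoly ∣ P.map (algebraMap F K) → aeval M P = 0 := by
    intro P hP
    rw [hBχ, Polynomial.map_dvd_map (algebraMap F K) (algebraMap F K).injective
      M.charpoly_monic] at hP
    obtain ⟨s, rfl⟩ := hP
    rw [map_mul, Matrix.aeval_self_charpoly, zero_mul]
  by_cases hfree : ∀ γ ∈ B.charpoly.roots, ¬ r ∣ orderOf γ
  · right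
    set N := ∏ γ ∈ B.charpoly.roots.toFinset, orderOf γ with hN
    refine ⟨N * p ^ n, ?_, ?_⟩
    · intro h
      rcases hr.dvd_mul.1 h with h | h
      · obtain ⟨γ, hγ, hd'⟩ := (Prime.dvd_finsetProd_iff hr.prime _).1 h
        exact hfree γ (Multiset.mem_toFinset.1 hγ) hd'
      · exact hrp ((Nat.prime_dvd_prime_iff_eq hr Fact.out).1 (hr.dvd_of_dvd_pow h))
    · have hdiv : B.charpoly ∣ ((X ^ (N * p ^ n) - 1 : F[X])).map (algebraMap F K) := by
        rw [Polynomial.map_sub, Polynomial.map_pow, map_X, Polynomial.map_one, pow_mul, hprod]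
        have h1 : ((B.charpoly.roots.map fun a => X - C a).prod) ∣
            ((B.charpoly.roots.map fun _ => (X ^ N - 1 : K[X])).prod) := by
          refine Multiset.prod_dvd_prod_of_dvd _ _ fun γ hγ => ?_
          rw [dvd_iff_isRoot, IsRoot, eval_sub, eval_pow, eval_X, eval_one, sub_eq_zero]
          exact orderOf_dvd_iff_pow_eq_one.1
            (Finset.dvd_prod_of_mem _ (Multiset.mem_toFinset.2 hγ))
        refine h1.trans ?_
        rw [Multiset.map_const', Multiset.prod_replicate, hcard]
        refine (pow_dvd_pow _ (Nat.lt_pow_self (Fact.out : p.Prime).one_lt).le).trans ?_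
        rw [sub_pow_char_pow, one_pow]
      have := descend _ hdiv
      rwa [map_sub, map_pow, aeval_X, map_one, sub_eq_zero] at this
  · left
    push Not at hfree
    obtain ⟨γ, hγ, hrγ⟩ := hfree
    set u : Kˣ := Units.mk0 γ (hne γ hγ) with hu
    have huγ : orderOf u = orderOf γ := by rw [← orderOf_units]; rfl
    -- the orbit of the eigenvalue
    have hroot : ∀ i : ℕ, B.charpoly.IsRoot ((u ^ (Q ^ i) : Kˣ) : K) := by
      intro i
      induction i with
      | zero => rw [pow_zero, zpow_one]; exact isRoot_of_mem_roots hγ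
      | succ i ih =>
        have := hclosed _ ih
        rwa [← Units.val_zpow_eq_zpow_val, ← _root_.zpow_mul, ← pow_succ] at this
    have hmem : ∀ i : ℕ, ((u ^ (Q ^ i) : Kˣ) : K) ∈ B.charpoly.roots := fun i =>
      (mem_roots B.charpoly_monic.ne_zero).2 (hroot i)
    have key : ∀ i j : ℕ, i < j → j - i < n → (u ^ (Q ^ i) : Kˣ) ≠ u ^ (Q ^ j) := by
      intro i j hij hlt h
      have h1 : (r : ℤ) ∣ Q ^ i * (Q ^ (j - i) - 1) := by
        have h2 : (orderOf u : ℤ) ∣ Q ^ j - Q ^ i :=
          orderOf_dvd_sub_iff_zpow_eq_zpow.2 h.symm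
        rw [mul_sub, mul_one, ← pow_add, Nat.add_sub_cancel' hij.le]
        exact (Int.natCast_dvd_natCast.2 (huγ ▸ hrγ)).trans h2
      rcases (Nat.prime_iff_prime_int.1 hr).dvd_or_dvd h1 with h | h
      · exact hrQ ((Nat.prime_iff_prime_int.1 hr).dvd_of_dvd_pow h)
      · exact hordQ _ (by omega) hlt h
    set L : Multiset K := (Multiset.range n).map fun i => ((u ^ (Q ^ i) : Kˣ) : K) with hL
    have hnodup : L.Nodup := by
      refine Multiset.Nodup.map_on (fun i hi j hj h => ?_) (Multiset.nodup_range n)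
      rw [Multiset.mem_range] at hi hj
      rcases lt_trichotomy i j with h' | h' | h'
      · exact absurd (Units.ext h) (key i j h' (by omega))
      · exact h'
      · exact absurd (Units.ext h.symm) (key j i h' (by omega))
    have hroots : B.charpoly.roots = L := by
      refine (Multiset.eq_of_le_of_card_le ((Multiset.le_iff_subset hnodup).2 ?_)
        (by rw [hcard, hL, Multiset.card_map, Multiset.card_range])).symm
      intro x hx
      obtain ⟨i, -, rfl⟩ := Multiset.mem_map.1 hx
      exact hmem i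
    have hS : u ^ (∑ i ∈ Finset.range n, Q ^ i) = 1 := by
      apply Units.ext
      have h := det_eq_prod_roots_charpoly_of_splits hsplit
      rw [hBdet, hroots, hL] at h
      rw [Units.val_one, h]
      have : u ^ (∑ i ∈ Finset.range n, Q ^ i) = ∏ i ∈ Finset.range n, u ^ (Q ^ i) := by
        induction (Finset.range n) using Finset.induction with
        | empty => simp
        | insert a s ha ih => rw [Finset.sum_insert ha, Finset.prod_insert ha, _root_.zpow_add, ih]
      rw [this, Units.coe_prod]
      rfl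
    have hkd : u ^ ((k * d : ℕ) : ℤ) = 1 := by
      rw [hk]
      rcases Int.natAbs_eq (∑ i ∈ Finset.range n, Q ^ i) with h | h
      · rw [← h]; exact hS
      · have h' : ((∑ i ∈ Finset.range n, Q ^ i).natAbs : ℤ) =
            -(∑ i ∈ Finset.range n, Q ^ i) := by linarith
        rw [h', _root_.zpow_neg, hS, inv_one]
    rw [zpow_natCast] at hkd
    have hfixQ : ∀ i : ℕ, (u ^ (Q ^ i)) ^ k = u ^ k := by
      intro i
      induction i with
      | zero => rw [pow_zero, zpow_one]
      | succ i ih =>
        obtain ⟨w, hw⟩ := hd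
        have hQ1 : (u ^ k) ^ Q = u ^ k := by
          rw [show Q = (d : ℤ) * w + 1 by linarith, _root_.zpow_add, zpow_one, _root_.zpow_mul,
            zpow_natCast, ← pow_mul, hkd, _root_.one_zpow, one_mul]
        calc (u ^ (Q ^ (i + 1))) ^ k = ((u ^ (Q ^ i)) ^ k) ^ Q := by
              rw [pow_succ, _root_.zpow_mul, ← zpow_natCast, ← zpow_natCast, zpow_comm]
          _ = u ^ k := by rw [ih, hQ1]
    obtain ⟨c, hc⟩ : ∃ c : F, algebraMap F K c = ((u ^ k : Kˣ) : K) := by
      refine CfsgLib.CharDegrees.eq_algebraMap_of_pow_card_eq ?_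
      obtain ⟨w, hw⟩ := hdF
      have h1 := Fintype.card_pos (α := F)
      rw [← Units.val_pow_eq_pow_val, show Fintype.card F = d * w + 1 by omega, pow_succ, pow_mul,
        ← pow_mul u k d, hkd, one_pow, one_mul]
    refine ⟨c, ?_⟩
    have hdiv : B.charpoly ∣ ((X ^ k - C c : F[X])).map (algebraMap F K) := by
      rw [Polynomial.map_sub, Polynomial.map_pow, map_X, map_C, hprod]
      have hne0 : (X ^ k - C (algebraMap F K c) : K[X]) ≠ 0 := X_pow_sub_C_ne_zero hk0 _
      rw [Multiset.prod_X_sub_C_dvd_iff_le_roots hne0, hroots, Multiset.le_iff_subset hnodup]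
      intro x hx
      obtain ⟨i, -, rfl⟩ := Multiset.mem_map.1 hx
      rw [mem_roots hne0, IsRoot, eval_sub, eval_pow, eval_X, eval_C, sub_eq_zero,
        ← Units.val_pow_eq_pow_val, hfixQ, hc]
    have := descend _ hdiv
    rw [map_sub, map_pow, aeval_X, aeval_C, sub_eq_zero] at this
    exact this

/-- The roots of a characteristic polynomial over a finite field are closed under `x ↦ x ^ q`. -/
theorem isRoot_pow_card (M : Matrix (Fin n) (Fin n) F) {K : Type*} [Field K] [Algebra F K]
    (γ : K) (h : (M.map (algebraMap F K)).charpoly.IsRoot γ) :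
    (M.map (algebraMap F K)).charpoly.IsRoot (γ ^ (Fintype.card F : ℤ)) := by
  rw [Matrix.charpoly_map, IsRoot, eval_map, ← aeval_def] at h ⊢
  have h1 := congrArg (aeval γ) (FiniteField.expand_card M.charpoly)
  rw [map_pow, h, zero_pow Fintype.card_ne_zero, expand_aeval] at h1
  rwa [zpow_natCast]

/-- The roots of the characteristic polynomial of a unitary matrix are closed under
`x ↦ x ^ (-q)`. -/
theorem isRoot_pow_neg {q e : ℕ} (p : ℕ) [Fact p.Prime] [CharP F p] (hq : q = p ^ e)
    (M : Matrix (Fin n) (Fin n) F) (hM : ((M.map fun x => x ^ q).transpose) * M = 1)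
    {K : Type*} [Field K] [Algebra F K]
    (γ : K) (h : (M.map (algebraMap F K)).charpoly.IsRoot γ) :
    (M.map (algebraMap F K)).charpoly.IsRoot (γ ^ (-(q : ℤ))) := by
  classical
  haveI : CharP K p := charP_of_injective_algebraMap (algebraMap F K).injective p
  set B := M.map (algebraMap F K) with hB
  set φ := iterateFrobenius K p e
  have hφ : ∀ x, φ x = x ^ q := fun x => by rw [iterateFrobenius_def, hq]
  have hX : (φ.mapMatrix B).transpose * B = 1 := by
    have h1 := congrArg (algebraMap F K).mapMatrix hM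
    rw [map_mul, map_one] at h1
    rw [← h1]
    congr 1
    ext i j
    simp [hB, hφ]
  have hBdet : B.det ≠ 0 := fun h0 => by
    have h1 := congrArg Matrix.det hX
    rw [det_mul, h0, mul_zero, det_one] at h1
    exact zero_ne_one h1
  rw [IsRoot, Matrix.eval_charpoly] at h ⊢
  have hγ : γ ≠ 0 := by
    rintro rfl
    rw [map_zero, zero_sub, det_neg] at h
    exact hBdet ((mul_eq_zero.1 h).resolve_left (pow_ne_zero _ (neg_ne_zero.2 one_ne_zero)))
  set δ := γ ^ q with hδ
  have hδ0 : δ ≠ 0 := pow_ne_zero _ hγ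
  have h2 : (Matrix.scalar (Fin n) δ - (φ.mapMatrix B).transpose).det = 0 := by
    have h1 := congrArg φ h
    rw [map_zero, RingHom.map_det, map_sub] at h1
    rw [← det_transpose, transpose_sub, transpose_transpose]
    rw [← h1]
    congr 2
    ext i j
    rcases eq_or_ne i j with rfl | hij
    · simp [Matrix.scalar_apply, hδ, hφ]
    · simp [Matrix.scalar_apply, hij, hij.symm, hδ, hφ, zero_pow (show q ≠ 0 by rw [hq]; exact pow_ne_zero _ (Fact.out : p.Prime).ne_zero)]
  have h3 : ((Matrix.scalar (Fin n) δ - (φ.mapMatrix B).transpose) * B).det = 0 := by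
    rw [det_mul, h2, zero_mul]
  rw [sub_mul, hX] at h3
  have h4 : Matrix.scalar (Fin n) δ * B - 1 =
      (-δ) • (Matrix.scalar (Fin n) δ⁻¹ - B) := by
    ext i j
    simp [Matrix.scalar_apply, Matrix.diagonal_mul, Matrix.one_apply, Matrix.diagonal_apply]
    split <;> field_simp <;> ring
  rw [h4, det_smul] at h3
  rw [_root_.zpow_neg, zpow_natCast, ← hδ]
  exact (mul_eq_zero.1 h3).resolve_left (pow_ne_zero _ (neg_ne_zero.2 hδ0))

end CfsgLib.SingerBound
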